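/-
Project Q49, cover tables: the group `G₂(2)`.
-/
import Cfsg.Agent.Q49.CovDefs
import Cfsg.Agent.S1057
import Cfsg.Agent.S1059
import Cfsg.Agent.S2360
import Cfsg.Agent.S0279
import Cfsg.Agent.S0280
import Cfsg.Agent.S0283

set_option autoImplicit false

namespace CL.Q49c

open Cfsg Subgroup

namespace G2Bx

theorem u33 {K : Type*} [Field K] [Fintype K] (hK : Fintype.card K = 3 ^ 2) :
    Nat.card (PSU 3 K 3) = 6048 ∧ ∀ a b : PSU 3 K 3, orderOf a = 2 → orderOf b = 2 → ∃ g, g * a * g⁻¹ = b := by
  constructor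
  · have h1 := Agent.S0280.result hK 3 (by norm_num)
    simp only [Finset.prod_range_succ, Finset.range_zero, Finset.prod_empty] at h1
    norm_num [Nat.even_add_one] at h1
    omega
  have hz : center (SU 3 K 3) = ⊥ := card_eq_one.1 ((Agent.S0279.result hK 3 le_rfl).trans (by norm_num))
  have hi : Function.Injective (QuotientGroup.mk' (center (SU 3 K 3))) := by
    rw [← MonoidHom.ker_eq_bot_iff, QuotientGroup.ker_mk', hz]
  intro a b ha hb
  obtain ⟨a, rfl⟩ := QuotientGroup.mk'_surjective _ a
  obtain ⟨b, rfl⟩ := QuotientGroup.mk'_surjective _ b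
  rw [orderOf_injective _ hi, orderOf_eq_prime_iff, pow_two] at ha hb
  obtain ⟨g, hg⟩ := (Agent.S2360.result (by norm_num) hK a ha.2 ha.1).1 b hb.2 hb.1
  exact ⟨QuotientGroup.mk' _ g, by rw [← map_mul, ← map_inv, ← map_mul, hg]⟩

theorem eq_comm' {M : Type*} [Group M] [IsSimpleGroup (commutator M)] (J : Subgroup M) [J.Normal] [IsSimpleGroup J]
    (h : ¬ IsMulCommutative J) : J = commutator M := by
  have h1 : commutator J = ⊤ := (inferInstance : (commutator J).Normal).eq_bot_or_eq_top.resolve_left fun k =>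
    h ⟨⟨fun a b => commutatorElement_eq_one_iff_mul_comm.1 (by
      have := commutator_mem_commutator (mem_top a) (mem_top b)
      rwa [← commutator_def, k, mem_bot] at this)⟩⟩
  have h2 : J ≤ commutator M := by
    have := map_subtype_commutator J
    rw [h1, ← MonoidHom.range_eq_map, range_subtype] at this
    rw [this]
    exact commutator_mono le_top le_top
  rcases (inferInstance : (J.subgroupOf (commutator M)).Normal).eq_bot_or_eq_top with k | k
  · rw [subgroupOf_eq_bot, disjoint_iff, inf_eq_left.2 h2] at k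
    subst k
    exact absurd ⟨⟨fun a b => Subsingleton.elim _ _⟩⟩ h
  · exact le_antisymm h2 (subgroupOf_eq_top.1 k)

end G2Bx

open G2Bx in
theorem g2B : G2B := by
  intro F _ _ hF
  have hM : Nat.card (Lie.chevG2.group F) = 12096 := by rw [Agent.S1059.result hF]; norm_num
  have := Fact.mk Nat.prime_three
  have := Fintype.ofFinite (GaloisField 3 2)
  have hK : Fintype.card (GaloisField 3 2) = 3 ^ 2 := by
    rw [← Nat.card_eq_fintype_card, GaloisField.card 3 2 (by norm_num)]
  obtain ⟨e⟩ := Agent.S1057.result hF hK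
  obtain ⟨hU, hc⟩ := u33 hK
  have := Agent.S0283.result hK 3 le_rfl (by norm_num)
  generalize Lie.chevG2.group F = M at *
  have hs : IsSimpleGroup (commutator M) := e.isSimpleGroup
  have hD : Nat.card (commutator M) = 6048 := (Nat.card_congr e.toEquiv).trans hU
  have hi : (commutator M).index = 2 := by
    have := (commutator M).card_mul_index
    rw [hD, hM] at this
    omega
  refine ⟨hM, fun J _ _ hJ => ?_, commutator M, inferInstance, hs, fun k => ?_⟩
  · rw [eq_comm' J hJ]
    refine ⟨fun l hl => ?_, fun a ha b hb oa ob => ?_⟩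
    · have h2 := (commutator M).pow_index_mem l
      rw [hi] at h2
      have h3 : l = (l ^ 2)⁻¹ := by rw [eq_inv_iff_mul_eq_one, ← pow_succ', hl]
      rw [h3]; exact inv_mem h2
    · obtain ⟨g, hg⟩ := hc (e ⟨a, ha⟩) (e ⟨b, hb⟩) (by rw [MulEquiv.orderOf_eq, ← Subgroup.orderOf_coe]; exact oa)
        (by rw [MulEquiv.orderOf_eq, ← Subgroup.orderOf_coe]; exact ob)
      obtain ⟨g, rfl⟩ := e.surjective g
      rw [← map_mul, ← map_inv, ← map_mul] at hg
      exact ⟨g, g.2, congrArg Subtype.val (e.injective hg)⟩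
  · have : Finite (commutator M) := Nat.finite_of_card_ne_zero (by omega)
    have h1 : (Nat.card (commutator M)).Prime := Group.is_simple_iff_prime_card.1 hs
    rw [hD] at h1
    norm_num at h1

end CL.Q49c
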