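/-
Project Q49 (S1849): the table for `Sz(8)`.
-/
import Cfsg.Agent.Q49.TbC
import Cfsg.Agent.S2126
import Cfsg.Agent.Cit.PG

set_option autoImplicit false
set_option linter.unusedSectionVars false

namespace CL.Q49

open Cfsg Subgroup CL.Even CL.Grp CL.Loc CL.Q16 CL.Q49M

universe u

theorem tab_of_cit {G : Type u} [Group G] [Finite G] {K L : Subgroup G} {z : G} {Y : Type*} [Group Y] [Finite Y]
    (hO : Nat.card (Cfsg.Out Y) = 3) (hC : ∀ t : Y, orderOf t = 2 → IsPGroup 2 (centralizer ({t} : Set Y)))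
    (f : (K ⧸ center K) ≃* Y) (p : Pr K L z) (hL : L ⊓ 𝒞(L) = ⊥) : False := by
  have hz := p.iz.1
  have hn := p.zn
  have := p.qs.2
  have hs : IsSimpleGroup Y := f.symm.isSimpleGroup
  let ψ : MulAut K := K.normalizerMonoidHom ⟨z, hn⟩
  have hψ : (center K).map (ψ : K →* K) = center K := (characteristic_iff_map_eq.1 inferInstance) ψ
  let φ : MulAut Y := (f.symm.trans (QuotientGroup.congr _ _ ψ hψ)).trans f
  let π : K →* Y := f.toMonoidHom.comp (QuotientGroup.mk' _)
  have hsj : Function.Surjective π := f.surjective.comp (QuotientGroup.mk'_surjective _)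
  have hφ : ∀ x : K, φ (π x) = π (ψ x) := fun x => by simp [φ, π]
  have hψ2 : ∀ x : K, ψ (ψ x) = x := fun x => Subtype.ext (by
    show z * (z * x * z⁻¹) * z⁻¹ = x
    rw [inv_eq_of_mul_eq_one_right hz, ← mul_assoc, ← mul_assoc, hz, one_mul, mul_assoc, hz, mul_one])
  have h2 : φ ^ 2 = 1 := MulEquiv.ext fun y => by
    obtain ⟨x, rfl⟩ := hsj y
    rw [pow_two, MulAut.mul_apply, hφ, hφ, hψ2]; rfl
  have h3 : φ ^ 3 ∈ Cfsg.Inn Y := by
    rw [← QuotientGroup.eq_one_iff, QuotientGroup.mk_pow, ← hO]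
    exact pow_card_eq_one'
  rw [pow_succ, h2, one_mul] at h3
  obtain ⟨t, ht⟩ := h3
  have hπ : Pi K z ⊤ π t :=
    { rg := MonoidHom.range_eq_top_of_surjective _ hsj
      ker := fun x => by
        have : π x = 1 ↔ x ∈ center K := by simp [π]
        rw [this, mem_center_iff]
        exact ⟨fun k y hy => congrArg Subtype.val (k ⟨y, hy⟩), fun k y => Subtype.ext (k y y.2)⟩
      cz := fun x x' hx => by
        obtain rfl : x' = ψ x := Subtype.ext hx
        rw [← hφ, ← ht]; rfl }
  have hZ : center Y = ⊥ := by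
    rcases hs.eq_bot_or_eq_top_of_normal (center Y) inferInstance with k | k
    · exact k
    · have k1 : commutator Y = ⊤ := by
        have := congrArg (Subgroup.map π) p.qs.1.commutator_eq_top
        rwa [commutator_def, map_commutator, map_top_of_surjective _ hsj] at this
      have k2 : commutator Y = ⊥ := by
        rw [commutator_def, commutator_eq_bot_iff_le_centralizer]
        exact fun x _ y _ => mem_center_iff.1 (k ▸ mem_top x) y
      exact absurd (k2.symm.trans k1) bot_ne_top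
  have ht2 : t * t = 1 := mem_bot.1 (hZ ▸ mem_center_iff.2 fun y => by
    have k := DFunLike.congr_fun h2 y
    rw [← ht, pow_two, ← map_mul] at k
    exact (mul_inv_eq_iff_eq_mul.1 k).symm)
  refine (hπ.tab (b := False) ht2 ?_ topEquiv.isSimpleGroup p hL False.elim).1
  by_cases h1 : t = 1
  · exact .inl h1
  refine .inr fun N _ k1 _ hs hc => absurd (comm_of_two hs ((hC t ?_).to_le (k1.trans ?_))) hc
  · have : Fact (Nat.Prime 2) := ⟨Nat.prime_two⟩
    exact orderOf_eq_prime (by rw [pow_two, ht2]) h1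
  · exact (commutator_le_self _).trans inf_le_right

theorem tabSz8B : Tab.{u} fun X _ => IsoSz8 X := by
  rintro G _ _ K L z p hL - ⟨F, _, _, hF, ⟨f⟩⟩
  have : Finite (Lie.Sz F (2 ^ (1 + 1))) := Finite.of_equiv _ f.toEquiv
  exact (tab_of_cit (Agent.S2126.result (m := 1) le_rfl hF)
    (CL.Cit.isCIT_of_model (CL.Chev.Sz.modelLie (m := 1) le_rfl hF)) f p hL).elim

end CL.Q49
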